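import Cfsg.Agent.Mat.Frob
import Cfsg.Agent.PSL2Rec.PrimeDeg
import Cfsg.Agent.PSL2Rec.FromTI
import Cfsg.Agent.PSL2Rec.Card

/-! Recognition of `PGL₂(q)`, `q` odd, by its order and the numbers of elements of each order. -/

set_option autoImplicit false

namespace Cfsg.Agent.PGLN

open Subgroup MulAction Cfsg.Agent.M11 Cfsg.Agent.Mat Cfsg.Agent.PSL2Rec Cfsg.Agent.Spec

universe u

variable {G : Type u} [Group G] [Finite G]

/-- Frobenius' theorem for a Hall divisor of the group order. -/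
theorem frob_hall {n m : ℕ} (hG : Nat.card G = n * m) (hc : n.Coprime m) :
    m ∣ {x : G | x ^ m = 1}.ncard := by
  classical
  have := Fintype.ofFinite G
  have m0 : m ≠ 0 := by
    rintro rfl
    exact (Nat.card_pos (α := G)).ne' (by rw [hG, mul_zero])
  refine (Nat.dvd_iff_prime_pow_dvd_dvd _ _).2 fun r k hr hk => ?_
  rcases Nat.eq_zero_or_pos k with rfl | k0
  · simp
  have h1 : r ∣ m := (dvd_pow_self r k0.ne').trans hk
  obtain ⟨A, B, hB, e⟩ := Nat.exists_eq_pow_mul_and_not_dvd m0 r hr.ne_one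
  have h2 : ¬ r ∣ n * B := fun h => (hr.dvd_mul.1 h).elim
    (fun h' => hr.one_lt.ne' (Nat.eq_one_of_dvd_coprimes hc h' h1)) hB
  have cop : (r ^ A).Coprime B := Nat.Coprime.pow_left _ (hr.coprime_iff_not_dvd.2 hB)
  have h3 := pow_dvd_sum_iv (G := G) hr (A := A) (m := n * B) (by rw [hG, e]; ring) h2
    (X := Finset.univ.filter fun x : G => x ^ B = 1) (fun x hx c => by
      simp only [Finset.mem_filter, Finset.mem_univ, true_and] at hx ⊢
      rw [conj_pow, hx, mul_one, mul_inv_cancel])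
  have h4 := sum_pairs (G := G) cop {u | u ^ r ^ A = 1} (Finset.univ.filter fun x : G => x ^ B = 1)
    (fun u hu => hu) (fun x hx => by simpa using hx)
  have h5 : {g : G | ∃ u ∈ {u : G | u ^ r ^ A = 1}, ∃ x ∈ Finset.univ.filter fun x : G => x ^ B = 1,
      Commute u x ∧ u * x = g} = {x : G | x ^ m = 1} := by
    ext g
    simp only [Set.mem_setOf_eq, Finset.mem_filter, Finset.mem_univ, true_and]
    constructor
    · rintro ⟨u, hu, x, hx, c, rfl⟩
      rw [c.mul_pow, e, pow_mul, hu, one_pow, one_mul, mul_comm, pow_mul, hx, one_pow]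
    · intro h
      obtain ⟨u, x, a, b, c, d, -⟩ := exists_decomp cop (e ▸ h)
      exact ⟨u, a, x, b, c, d⟩
  rw [h5] at h4
  refine Dvd.dvd.trans ?_ (h4 ▸ h3)
  rw [e] at hk
  exact Nat.Coprime.dvd_of_dvd_mul_right (Nat.Coprime.pow_left _ (hr.coprime_iff_not_dvd.2 hB)) hk

theorem mo_one : mo G 1 = 1 := by simp [mo]

theorem sum_div : Nat.card G = ∑ n ∈ (Nat.card G).divisors, mo G n :=
  card_eq_sum_mo fun g => Nat.mem_divisors.2 ⟨orderOf_dvd_natCard g, Nat.card_pos.ne'⟩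

section

variable {p f q M : ℕ} (hp : p.Prime) (hq : q = p ^ (f + 1)) (hM : M + 1 = q * q)
  (hG : Nat.card G = q * M)
include hp hq hM hG

theorem q_one_lt : 1 < q := hq ▸ Nat.one_lt_pow (by omega) hp.one_lt

theorem p_dvd : p ∣ q := hq ▸ dvd_pow_self p (by omega)

theorem cop_qM : q.Coprime M := by
  have : (q * q).Coprime M := by rw [← hM]; simp
  exact Nat.Coprime.coprime_mul_right this

theorem dvd_sing : M ∣ ∑ n ∈ (Nat.card G).divisors.filter (p ∣ ·), mo G n := by
  have cop := cop_qM hp hq hM hG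
  have h1 := frob_hall hG cop
  have h2 : {x : G | x ^ M = 1} =
      {x : G | orderOf x ∈ (Nat.card G).divisors.filter (¬ p ∣ ·)} := by
    ext x
    simp only [Set.mem_setOf_eq, Finset.mem_filter, Nat.mem_divisors]
    constructor
    · intro h
      exact ⟨⟨orderOf_dvd_natCard x, Nat.card_pos.ne'⟩, fun e => hp.one_lt.ne'
        (Nat.eq_one_of_dvd_coprimes cop (p_dvd hp hq hM hG)
          (e.trans (orderOf_dvd_of_pow_eq_one h)))⟩
    · rintro ⟨⟨h, -⟩, h'⟩
      rw [hG] at h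
      exact orderOf_dvd_iff_pow_eq_one.1 (Nat.Coprime.dvd_of_dvd_mul_left
        (hq ▸ Nat.Coprime.pow_right _ (hp.coprime_iff_not_dvd.2 h').symm) h)
  rw [h2, ncard_eq_sum_mo] at h1
  have h3 := Finset.sum_filter_add_sum_filter_not (Nat.card G).divisors (p ∣ ·) (mo G)
  rw [← sum_div] at h3
  have h4 : M ∣ Nat.card G := Dvd.intro_left q hG.symm
  rw [← h3] at h4
  rw [h3] at h4
  exact (Nat.dvd_add_left h1).1 (h3.symm ▸ h4)

theorem p_mem : p ∈ (Nat.card G).divisors :=
  Nat.mem_divisors.2 ⟨hG ▸ (p_dvd hp hq hM hG).mul_right _, Nat.card_pos.ne'⟩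

theorem noMul_of (h1 : mo G p = M) (h2 : ∀ n, n ≠ 1 → n ≠ p → q ∣ mo G n) : NoMul p G := by
  intro r hr x hx
  have h3 := dvd_sing hp hq hM hG
  have pm : p ∈ (Nat.card G).divisors.filter (p ∣ ·) :=
    Finset.mem_filter.2 ⟨p_mem hp hq hM hG, dvd_rfl⟩
  have h4 := Finset.sum_le_sum_of_subset (f := mo G) (Finset.filter_subset (p ∣ ·)
    (Nat.card G).divisors)
  rw [← sum_div] at h4
  rw [← Finset.add_sum_erase _ _ pm, h1] at h3 h4
  have h5 : q ∣ ∑ n ∈ ((Nat.card G).divisors.filter (p ∣ ·)).erase p, mo G n :=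
    Finset.dvd_sum fun n hn => h2 n (fun e => hp.one_lt.ne' (Nat.dvd_one.1
      (e ▸ (Finset.mem_filter.1 (Finset.mem_erase.1 hn).2).2))) (Finset.mem_erase.1 hn).1
  have h6 := (cop_qM hp hq hM hG).mul_dvd_of_dvd_of_dvd h5 ((Nat.dvd_add_right dvd_rfl).1 h3)
  have q1 := q_one_lt hp hq hM hG
  have M0 : 0 < M := by nlinarith
  have h7 := Nat.eq_zero_of_dvd_of_lt h6 (by omega)
  refine mo_ne_zero x (Finset.sum_eq_zero_iff.1 h7 _ (Finset.mem_erase.2 ⟨fun e => ?_,
    Finset.mem_filter.2 ⟨Nat.mem_divisors.2 ⟨orderOf_dvd_natCard x, Nat.card_pos.ne'⟩,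
      hx ▸ Dvd.intro _ rfl⟩⟩))
  rw [hx] at e
  exact hr.one_lt.ne' (Nat.eq_of_mul_eq_mul_left hp.pos (by rw [e, mul_one]))

theorem dvd_of_noMul (h : NoMul p G) {n : ℕ} (h1 : n ≠ 1) (h2 : n ≠ p) : q ∣ mo G n := by
  have := Fact.mk hp
  obtain ⟨P⟩ : Nonempty (Sylow p G) := inferInstance
  have c : Nat.card P = q := hq ▸ M11.card_sylow_eq P (f + 1) M (hq ▸ hG) fun e => hp.one_lt.ne'
    (Nat.eq_one_of_dvd_coprimes (cop_qM hp hq hM hG) (p_dvd hp hq hM hG) e)
  rw [← c]
  refine card_dvd_of_free (R := (P : Subgroup G)) (X := {g | orderOf g = n}) (fun r _ u hu => ?_)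
    fun r hr u hu e => ?_
  · rw [Set.mem_setOf_eq, M11.orderOf_conj']; exact hu
  · by_contra r1
    have := orderOf_dvd_of_pow_eq_one
      (h.pow_eq_one_of_commute r1 (h.pow_eq_one P.isPGroup' hr) e)
    rw [show orderOf u = n from hu, Nat.dvd_prime hp] at this
    exact this.elim h1 h2

theorem count_M (h : ∀ n, n ≠ 1 → mo G n = M ∨ q ∣ mo G n) :
    ((Nat.card G).divisors.filter (mo G · = M)).card = 1 := by
  have q1 := q_one_lt hp hq hM hG
  have M1 : 1 < M := by nlinarith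
  have h3 := Finset.sum_filter_add_sum_filter_not (Nat.card G).divisors (mo G · = M) (mo G)
  have om : 1 ∈ (Nat.card G).divisors.filter (¬ mo G · = M) :=
    Finset.mem_filter.2 ⟨Nat.one_mem_divisors.2 Nat.card_pos.ne', by rw [mo_one]; omega⟩
  rw [← sum_div, ← Finset.add_sum_erase _ _ om, mo_one,
    Finset.sum_const_nat (m := M) fun n hn => (Finset.mem_filter.1 hn).2] at h3
  obtain ⟨X, hX⟩ : q ∣ ∑ n ∈ ((Nat.card G).divisors.filter (¬ mo G · = M)).erase 1, mo G n :=
    Finset.dvd_sum fun n hn => (h n (Finset.mem_erase.1 hn).1).resolve_left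
      (Finset.mem_filter.1 (Finset.mem_erase.1 hn).2).2
  rw [hX] at h3
  generalize ((Nat.card G).divisors.filter (mo G · = M)).card = a at *
  rw [hG] at h3
  have a1 : a < q := by
    by_contra h0
    have : q * M ≤ a * M := Nat.mul_le_mul_right _ (by omega)
    omega
  have e : (q : ℤ) ∣ (a : ℤ) - 1 := ⟨a * q + X - M, by
    have e1 : (M : ℤ) = q * q - 1 := by rw [eq_sub_iff_add_eq]; exact_mod_cast hM
    have e2 : (a : ℤ) * M + (1 + q * X) = q * M := by exact_mod_cast h3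
    rw [e1] at e2 ⊢
    linear_combination -e2⟩
  have := Int.eq_zero_of_abs_lt_dvd e (by rw [abs_lt]; constructor <;> omega)
  omega

theorem mo_p_ndvd : ¬ q ∣ mo G p := fun e => by
  have h1 := pow_dvd_sum_mo (G := G) hp (a := 1) (by
    rw [pow_one, hG]; exact (p_dvd hp hq hM hG).mul_right _)
  rw [pow_one, hp.sum_divisors, mo_one] at h1
  exact hp.one_lt.ne' (Nat.dvd_one.1 ((Nat.dvd_add_right ((p_dvd hp hq hM hG).trans e)).1 h1))

theorem mo_p_of_noMul (h : NoMul p G) : mo G p = M := by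
  have h3 := dvd_sing hp hq hM hG
  have pm : p ∈ (Nat.card G).divisors.filter (p ∣ ·) :=
    Finset.mem_filter.2 ⟨p_mem hp hq hM hG, dvd_rfl⟩
  rw [Finset.sum_eq_single_of_mem p pm fun n hn hne => by
    by_contra h0
    obtain ⟨x, rfl⟩ := exists_ord h0
    exact hne (h.orderOf_eq (Finset.mem_filter.1 hn).2)] at h3
  obtain ⟨s, hs⟩ := h3
  have q1 := q_one_lt hp hq hM hG
  have om : 1 ∈ (Nat.card G).divisors.erase p :=
    Finset.mem_erase.2 ⟨hp.one_lt.ne, Nat.one_mem_divisors.2 Nat.card_pos.ne'⟩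
  have h4 := sum_div (G := G)
  rw [← Finset.add_sum_erase _ _ (p_mem hp hq hM hG), ← Finset.add_sum_erase _ _ om, mo_one] at h4
  obtain ⟨X, hX⟩ : q ∣ ∑ n ∈ ((Nat.card G).divisors.erase p).erase 1, mo G n :=
    Finset.dvd_sum fun n hn => dvd_of_noMul hp hq hM hG h (Finset.mem_erase.1 hn).1
      (Finset.mem_erase.1 (Finset.mem_erase.1 hn).2).1
  rw [hX, hs, hG] at h4
  have a1 : s < q := by
    by_contra h0
    have : M * q ≤ M * s := Nat.mul_le_mul_left _ (by omega)
    nlinarith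
  have e : (q : ℤ) ∣ (s : ℤ) - 1 := ⟨s * q + X - M, by
    have e1 : (M : ℤ) = q * q - 1 := by rw [eq_sub_iff_add_eq]; exact_mod_cast hM
    have e2 : (q : ℤ) * M = M * s + (1 + q * X) := by exact_mod_cast h4
    rw [e1] at e2 ⊢
    linear_combination e2⟩
  have := Int.eq_zero_of_abs_lt_dvd e (by rw [abs_lt]; constructor <;> omega)
  rw [hs, show s = 1 by omega, mul_one]

theorem noMul_of' (h : ∀ n, n ≠ 1 → mo G n = M ∨ q ∣ mo G n) : NoMul p G := by
  have h1 := (h p hp.one_lt.ne').resolve_right (mo_p_ndvd hp hq hM hG)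
  obtain ⟨a, ha⟩ := Finset.card_eq_one.1 (count_M hp hq hM hG h)
  have h2 := Finset.mem_singleton.1 (ha ▸ Finset.mem_filter.2 ⟨p_mem hp hq hM hG, h1⟩)
  refine noMul_of hp hq hM hG h1 fun n n1 np => (h n n1).elim (fun e => ?_) id
  have q1 := q_one_lt hp hq hM hG
  obtain ⟨x, rfl⟩ := exists_ord (G := G) (n := n) (by rw [e]; nlinarith)
  exact absurd ((Finset.mem_singleton.1 (ha ▸ Finset.mem_filter.2 ⟨Nat.mem_divisors.2
    ⟨orderOf_dvd_natCard x, Nat.card_pos.ne'⟩, e⟩)).trans h2.symm) np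

end

theorem comm_of_count {Ω : Type*} [MulAction G Ω] {a b : Ω} {P : Subgroup G} {w : G}
    (h : ZData G a b P w) (hc : Nat.card ↥(stabilizer G a ⊓ stabilizer G b) + 1 = Nat.card P)
    (ho : Odd (Nat.card P)) (h1 : 1 < Nat.card P) (hm : Nat.card P * Nat.card P ≤ mo G 2) :
    ∀ k ∈ stabilizer G a ⊓ stabilizer G b, ∀ l ∈ stabilizer G a ⊓ stabilizer G b,
      k * l = l * k := by
  classical
  have he : Even (Nat.card ↥(stabilizer G a ⊓ stabilizer G b)) := by
    rw [← hc, Nat.odd_add_one, Nat.not_odd_iff_even] at ho; exact ho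
  have hP : P ≠ ⊥ := (one_lt_card_iff_ne_bot P).1 h1
  obtain ⟨v, hv, hva, hvb, -⟩ := h.exists_swap hP he
  obtain ⟨z, hz, hz1, hz2⟩ := ZData.exists_involution he
  obtain ⟨x0, hx0, x1⟩ := (bot_or_exists_ne_one P).resolve_left hP
  have sq : ∀ i : G, orderOf i = 2 → i * i = 1 := fun i hi => by
    rw [← pow_two, ← hi, pow_orderOf_eq_one]
  -- involutions fixing `a`
  have f1 : ∀ i : G, orderOf i = 2 → i • a = a → i * z ∈ P := fun i hi e => by
    obtain ⟨x, hx, e1⟩ := h.P_trans (i • b) fun e1 => h.ne (smul_left_cancel i (e.trans e1.symm))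
    have hk : x⁻¹ * i ∈ stabilizer G a ⊓ stabilizer G b :=
      ⟨show (x⁻¹ * i) • a = a by rw [mul_smul, e, h.P_fix _ (inv_mem hx)],
        show (x⁻¹ * i) • b = b by rw [mul_smul, ← e1, inv_smul_smul]⟩
    have k2 : x⁻¹ * i * (x⁻¹ * i) = 1 := h.P_free _ (by
      have := mul_mem (inv_mem hx) (h.P_norm i e _ (inv_mem hx))
      rwa [inv_eq_of_mul_eq_one_right (sq i hi), ← mul_assoc, ← mul_assoc, mul_assoc _ x⁻¹ i] at this)
      (mul_mem hk hk).2
    have k1 : x⁻¹ * i ≠ 1 := fun e2 => by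
      rw [inv_mul_eq_one] at e2
      have := orderOf_dvd_natCard _ hx
      rw [e2, hi] at this
      exact (Nat.not_even_iff_odd.2 ho) (even_iff_two_dvd.2 this)
    have k3 := (h.semi _ (mul_mem hk hz) x0 hx0 (by
      calc _ = x⁻¹ * i * (z * x0 * z⁻¹) * (x⁻¹ * i)⁻¹ := by group
        _ = x0 := by rw [h.inverts hz hz1 hz2 x0 hx0, h.inverts hk k1 k2 _ (inv_mem hx0), inv_inv]
      )).resolve_right x1
    rw [mul_assoc, inv_mul_eq_one] at k3
    exact k3 ▸ hx
  set S := {i : G // i * i = 1 ∧ i • a = b ∧ i • b = a}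
  have f2 : ∀ i : G, orderOf i = 2 → i • a ≠ a → ∃ x : P, ∃ s : S, i = x * s * (x : G)⁻¹ :=
    fun i hi e => by
      obtain ⟨x, hx, e1⟩ := h.P_trans _ e
      have e2 := h.P_fix x hx
      refine ⟨⟨x, hx⟩, ⟨x⁻¹ * i * x, ?_, ?_, ?_⟩, by simp only; group⟩
      · calc _ = x⁻¹ * (i * i) * x := by group
          _ = 1 := by rw [sq i hi]; group
      · rw [mul_smul, mul_smul, e2, ← e1, inv_smul_smul]
      · rw [mul_smul, mul_smul, e1, ← mul_smul i, sq i hi, one_smul, h.P_fix _ (inv_mem hx)]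
  have f3 : mo G 2 ≤ Nat.card (P ⊕ P × S) := by
    refine Nat.card_le_card_of_surjective (α := P ⊕ P × S) (β := {g : G | orderOf g = 2})
      (fun y => if e : orderOf (Sum.elim (fun x : P => (x : G) * z)
        (fun y : P × S => (y.1 : G) * y.2 * (y.1 : G)⁻¹) y) = 2 then ⟨_, e⟩ else
        ⟨z, orderOf_eq_prime (by rw [pow_two, hz2]) hz1⟩) ?_
    rintro ⟨i, hi⟩
    by_cases e : i • a = a
    · have e1 : i * z * z = i := by rw [mul_assoc, hz2, mul_one]
      refine ⟨Sum.inl ⟨i * z, f1 i hi e⟩, ?_⟩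
      simp only [Sum.elim_inl, e1]
      exact dif_pos hi
    · obtain ⟨x, s, rfl⟩ := f2 i hi e
      exact ⟨Sum.inr (x, s), dif_pos hi⟩
  rw [Nat.card_sum, Nat.card_prod, ZData.card_swap_eq hv hva hvb] at f3
  have f4 : ∀ k : ↥(stabilizer G a ⊓ stabilizer G b), v * k * v⁻¹ = (k : G)⁻¹ := by
    by_contra h0
    push Not at h0
    obtain ⟨k, hk⟩ := h0
    have := Fintype.ofFinite ↥(stabilizer G a ⊓ stabilizer G b)
    have := Fintype.card_subtype_lt
      (p := fun k : ↥(stabilizer G a ⊓ stabilizer G b) => v * k * v⁻¹ = (k : G)⁻¹) hk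
    rw [← Nat.card_eq_fintype_card, ← Nat.card_eq_fintype_card] at this
    nlinarith
  intro k hk l hl
  have e1 := f4 ⟨_, mul_mem hk hl⟩
  have e2 := f4 ⟨k, hk⟩
  have e3 := f4 ⟨l, hl⟩
  simp only at e1 e2 e3
  rw [← inv_inj, ← e1, mul_inv_rev, ← e2, ← e3]
  group

section

variable {F : Type*} [Field F] [Fintype F]

theorem two_ne (ho : Odd (Fintype.card F)) : (2 : F) ≠ 0 := fun e => by
  have h1 : ((Fintype.card F : ℕ) : F) = 0 := FiniteField.cast_card_eq_zero F
  obtain ⟨k, hk⟩ := ho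
  rw [hk] at h1
  push_cast at h1
  rw [e] at h1
  simp at h1

theorem mo_two_ge (ho : Odd (Fintype.card F)) : Fintype.card F * Fintype.card F ≤
    mo (GL (Fin 2) F ⧸ Subgroup.center (GL (Fin 2) F)) 2 := by
  classical
  have h2 := two_ne ho
  have key : ∀ A : GL (Fin 2) F, A.1 1 1 = -A.1 0 0 → orderOf (QuotientGroup.mk A :
      GL (Fin 2) F ⧸ Subgroup.center (GL (Fin 2) F)) = 2 := fun A hA => by
    refine orderOf_eq_prime ((pgl_pow_eq_one_iff A 2).2 ?_) fun e => ?_
    · rw [pow_two, sq_eq_two, hA]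
      simp [IsScal2]
    · have := (pgl_pow_eq_one_iff A 1).1 (by rw [pow_one, e])
      rw [pow_one] at this
      obtain ⟨e1, e2, e3⟩ := this
      have e4 : A.1 0 0 = 0 := by
        have : 2 * A.1 0 0 = 0 := by rw [hA] at e3; linear_combination e3
        exact (mul_eq_zero.1 this).resolve_left h2
      apply A.det_ne_zero
      rw [Matrix.det_fin_two, e4, e1]; simp
  let f : F × F × Fˣ → GL (Fin 2) F := fun y =>
    if e : y.1 * y.1 + y.2.1 = 0 then
      Matrix.GeneralLinearGroup.mkOfDetNeZero !![(y.2.2 : F), y.1; 0, -(y.2.2 : F)] (by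
        simp [Matrix.det_fin_two])
    else Matrix.GeneralLinearGroup.mkOfDetNeZero
      !![y.2.2 * y.1, y.2.2 * y.2.1; (y.2.2 : F), -(y.2.2 * y.1)] (by
        rw [Matrix.det_fin_two_of]
        intro e1
        apply mul_ne_zero (mul_ne_zero y.2.2.ne_zero y.2.2.ne_zero) e
        linear_combination -e1)
  have hf : ∀ y, orderOf (QuotientGroup.mk (f y) :
      GL (Fin 2) F ⧸ Subgroup.center (GL (Fin 2) F)) = 2 := fun y => key _ (by
    simp only [f]
    split_ifs <;> simp)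
  have inj : Function.Injective f := by
    rintro ⟨a, b, c⟩ ⟨a', b', c'⟩ e
    have e00 := congrArg (fun A : GL (Fin 2) F => A.1 0 0) e
    have e01 := congrArg (fun A : GL (Fin 2) F => A.1 0 1) e
    have e10 := congrArg (fun A : GL (Fin 2) F => A.1 1 0) e
    simp only [f] at e00 e01 e10
    split_ifs at e00 e01 e10 with h h' h'
    · simp at e00 e01
      have : b = b' := by rw [e01] at h; linear_combination h - h'
      rw [e01, this, Units.ext e00]
    · exact absurd e10.symm (by simp)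
    · exact absurd e10 (by simp)
    · simp at e00 e01 e10
      rw [e10] at e00 e01
      rw [mul_left_cancel₀ c'.ne_zero e00, mul_left_cancel₀ c'.ne_zero e01, Units.ext e10]
  have h3 := Nat.card_le_card_of_injective (β := QuotientGroup.mk ⁻¹'
    {g : GL (Fin 2) F ⧸ Subgroup.center (GL (Fin 2) F) | orderOf g = 2})
    (fun y => ⟨f y, hf y⟩) fun y y' e => inj (congrArg Subtype.val e)
  rw [QuotientGroup.card_preimage_mk, card_center_gl2, Nat.card_prod, Nat.card_prod, card_units_eq,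
    Nat.card_eq_fintype_card, ← mul_assoc, mul_comm] at h3
  exact Nat.le_of_mul_le_mul_left h3 (by have := Fintype.one_lt_card (α := F); omega)

theorem main (hodd : Odd (Fintype.card F)) (h3 : 3 < Fintype.card F)
    (hcard : Nat.card G = Nat.card (GL (Fin 2) F ⧸ Subgroup.center (GL (Fin 2) F)))
    (hnse : ∀ c, 0 < c → ((∃ n, c = mo G n) ↔
      ∃ n, c = mo (GL (Fin 2) F ⧸ Subgroup.center (GL (Fin 2) F)) n)) :
    Nonempty (G ≃* (GL (Fin 2) F ⧸ Subgroup.center (GL (Fin 2) F))) := by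
  obtain ⟨p, hc, ⟨n, n0⟩, hp, hn⟩ := FiniteField.card' F
  have := Fact.mk hp
  obtain ⟨f, rfl⟩ : ∃ f, n = f + 1 := ⟨n - 1, by omega⟩
  have hq : Fintype.card F = p ^ (f + 1) := hn
  set q := Fintype.card F
  have hM : (q - 1) * (q + 1) + 1 = q * q := by
    obtain ⟨k, hk⟩ : ∃ k, q = k + 1 := ⟨q - 1, by omega⟩
    rw [hk, Nat.add_sub_cancel]; ring
  have cP : Nat.card (GL (Fin 2) F ⧸ Subgroup.center (GL (Fin 2) F)) = q * ((q - 1) * (q + 1)) := by
    rw [card_pgl2, mul_assoc]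
  have cG := hcard.trans cP
  have cop := cop_qM hp hq hM cG
  have pq := p_dvd hp hq hM cG
  have nP : NoMul p (GL (Fin 2) F ⧸ Subgroup.center (GL (Fin 2) F)) := fun r hr x hx => by
    have key : ¬ orderOf x ∣ (q - 1) * (q + 1) := fun e => hp.one_lt.ne'
      (Nat.eq_one_of_dvd_coprimes cop pq ((hx ▸ Dvd.intro _ rfl : p ∣ orderOf x).trans e))
    rcases pgl_order_dvd p x with e | e | e
    · rw [hx] at e
      have := Nat.le_of_dvd hp.pos e
      nlinarith [hr.one_lt, hp.pos]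
    · exact key (e.mul_right _)
    · exact key (e.mul_left _)
  have m2 : q * q ≤ _ := mo_two_ge hodd
  have odd2 : ¬ 2 ∣ mo (GL (Fin 2) F ⧸ Subgroup.center (GL (Fin 2) F)) 2 := fun e => by
    have h1 := pow_dvd_sum_mo (G := GL (Fin 2) F ⧸ Subgroup.center (GL (Fin 2) F)) Nat.prime_two
      (a := 1) (by
        rw [pow_one, cP]
        exact ((even_iff_two_dvd.1 hodd.add_one).mul_left _).mul_left _)
    rw [pow_one, Nat.prime_two.sum_divisors, mo_one] at h1
    omega
  have big : ∀ n, n ≠ 1 → n ≠ 2 → 2 ∣ mo G n := fun n a b => by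
    rcases Nat.eq_zero_or_pos n with rfl | n0
    · have : mo G 0 = 0 := by
        by_contra h0
        obtain ⟨x, hx⟩ := exists_ord h0
        exact (orderOf_pos x).ne' hx
      rw [this]; exact dvd_zero _
    · exact (even_iff_two_dvd.1 (Nat.totient_even (by omega))).trans (totient_dvd_mo n)
  have q2 : 16 ≤ q * q := Nat.mul_le_mul h3 h3
  have m2G : q * q ≤ mo G 2 := by
    obtain ⟨n, hn⟩ := (hnse _ (by omega)).2 ⟨2, rfl⟩
    by_cases a : n = 1
    · rw [a, mo_one] at hn; omega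
    by_cases b : n = 2
    · rw [← b, ← hn]; exact m2
    · exact absurd (hn ▸ big n a b) odd2
  have nG : NoMul p G := noMul_of' hp hq hM cG fun n n1 => by
    rcases Nat.eq_zero_or_pos (mo G n) with e | e
    · right; rw [e]; exact dvd_zero _
    obtain ⟨k, hk⟩ := (hnse _ e).1 ⟨n, rfl⟩
    by_cases a : k = 1
    · rw [a, mo_one] at hk
      by_cases b : n = 2
      · rw [b] at hk; omega
      · have := big n n1 b
        omega
    by_cases b : k = p
    · left; rw [hk, b, mo_p_of_noMul hp hq hM cP nP]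
    · right; rw [hk]; exact dvd_of_noMul hp hq hM cP nP a b
  obtain ⟨P, Q, w, h, c1, c2, -⟩ := nG.sylowTI.exists_zdata_of_card (fun r hr _ => nG r hr)
    (n := f + 1) (t := q - 1) (by omega) (by rw [← hq]) (by rw [← hq, cG, mul_assoc])
  rw [← hq] at c1
  have c3 : Nat.card ↥(stabilizer G P ⊓ stabilizer G Q) + 1 = Nat.card P := by rw [c1, c2]; omega
  rcases h.recognition_of_even c1.symm h3 (comm_of_count h c3 (c1 ▸ hodd) (by omega) (c1 ▸ m2G)) (by
    rw [c2]; exact Nat.Odd.sub_odd hodd odd_one) with e | ⟨-, e⟩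
  · exact e.1
  · rw [c2, Nat.gcd_eq_left (even_iff_two_dvd.1 (Nat.Odd.sub_odd hodd odd_one))] at e
    omega

end

end Cfsg.Agent.PGLN
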